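import Cfsg.Agent.LinP.PBasic

set_option autoImplicit false

namespace Cfsg.Agent.LinP

open Subgroup

variable {F : Type*} [Field F] {V : Type*} [AddCommGroup V] [Module F V]
  {G : Type*} [Group G] (ρ : G →* (V ≃ₗ[F] V)) {p : ℕ}

/-- The fixed space of a group element. -/
def fx (t : G) : Submodule F V where
  carrier := {v | ρ t v = v}
  add_mem' := by
    intro a b ha hb
    change ρ t (a + b) = a + b
    rw [map_add, show ρ t a = a from ha, show ρ t b = b from hb]
  zero_mem' := by simp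
  smul_mem' := by
    intro c a ha
    change ρ t (c • a) = c • a
    rw [map_smul, show ρ t a = a from ha]

theorem mem_fx {t : G} {v : V} : v ∈ fx ρ t ↔ ρ t v = v := Iff.rfl

theorem rho_mul (g h : G) (v : V) : ρ (g * h) v = ρ g (ρ h v) := by
  rw [map_mul, LinearEquiv.mul_apply]

theorem rho_one (v : V) : ρ 1 v = v := by simp

theorem rho_inv_apply (g : G) (v : V) : ρ g⁻¹ (ρ g v) = v := by
  rw [← rho_mul, inv_mul_cancel, rho_one]

theorem rho_apply_inv (g : G) (v : V) : ρ g (ρ g⁻¹ v) = v := by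
  rw [← rho_mul, mul_inv_cancel, rho_one]

/-- The stabilizer of a vector. -/
def stab (v : V) : Subgroup G where
  carrier := {g | ρ g v = v}
  mul_mem' := by
    intro a b ha hb
    change ρ (a * b) v = v
    rw [rho_mul, show ρ b v = v from hb, show ρ a v = v from ha]
  one_mem' := rho_one ρ v
  inv_mem' := by
    intro a ha
    change ρ a⁻¹ v = v
    conv_lhs => rw [← show ρ a v = v from ha]
    exact rho_inv_apply ρ a v

theorem mem_stab {g : G} {v : V} : g ∈ stab ρ v ↔ ρ g v = v := Iff.rfl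

theorem card_orbit_eq_index (v : V) :
    Nat.card {u : V | ∃ g : G, ρ g v = u} = (stab ρ v).index := by
  let _ : MulAction G V := MulAction.compHom V ρ
  have h1 : stab ρ v = MulAction.stabilizer G v := by ext g; rfl
  rw [h1, MulAction.index_stabilizer]
  rfl

theorem eq_one_of_fx_eq_top (hρ : Function.Injective ρ) {t : G} (h : fx ρ t = ⊤) : t = 1 := by
  apply hρ
  rw [map_one]; ext v
  have : v ∈ fx ρ t := h ▸ Submodule.mem_top
  simpa using (mem_fx ρ).1 this

theorem fx_le_of_mem_zpowers {x y : G} (h : y ∈ zpowers x) : fx ρ x ≤ fx ρ y := by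
  intro v hv
  have : zpowers x ≤ stab ρ v := zpowers_le_of_mem hv
  exact this h

theorem rho_mem_fx_conj {x : G} (g : G) {v : V} (hv : v ∈ fx ρ x) :
    ρ g v ∈ fx ρ (g * x * g⁻¹) := by
  rw [mem_fx, rho_mul, rho_inv_apply, rho_mul, (mem_fx ρ).1 hv]

theorem map_fx (g x : G) : (fx ρ x).map (ρ g : V →ₗ[F] V) = fx ρ (g * x * g⁻¹) := by
  apply le_antisymm
  · rintro _ ⟨v, hv, rfl⟩
    exact rho_mem_fx_conj ρ g hv
  · intro v hv
    refine ⟨ρ g⁻¹ v, ?_, rho_apply_inv ρ g v⟩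
    have := rho_mem_fx_conj ρ g⁻¹ hv
    simpa [mul_assoc] using this

theorem rho_mem_fx_of_commute {x g : G} (h : g * x = x * g) {v : V} (hv : v ∈ fx ρ x) :
    ρ g v ∈ fx ρ x := by
  have := rho_mem_fx_conj ρ g hv
  rwa [h, mul_inv_cancel_right] at this

/-- The norm `∑ j < n, x ^ j` as a linear map. -/
noncomputable def nrm (x : G) (n : ℕ) : V →ₗ[F] V :=
  ∑ j ∈ Finset.range n, (ρ (x ^ j) : V →ₗ[F] V)

theorem nrm_apply (x : G) (n : ℕ) (v : V) :
    nrm ρ x n v = ∑ j ∈ Finset.range n, ρ (x ^ j) v := by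
  simp [nrm]

theorem nrm_mem_fx {x : G} {n : ℕ} (hx : x ^ n = 1) (v : V) : nrm ρ x n v ∈ fx ρ x := by
  rw [mem_fx, nrm_apply, map_sum]
  simp only [← rho_mul, ← pow_succ']
  have h1 := Finset.sum_range_succ' (fun j => ρ (x ^ j) v) n
  have h2 := Finset.sum_range_succ (fun j => ρ (x ^ j) v) n
  rw [h1, hx, pow_zero] at h2
  exact add_right_cancel h2

theorem nrm_of_mem_fx {x : G} (n : ℕ) {v : V} (hv : v ∈ fx ρ x) : nrm ρ x n v = (n : F) • v := by
  rw [nrm_apply, Finset.sum_congr rfl (g := fun _ => v), Finset.sum_const, Finset.card_range,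
    Nat.cast_smul_eq_nsmul]
  intro j _
  exact fx_le_of_mem_zpowers ρ (pow_mem (mem_zpowers x) j) hv

theorem zmodPow_add {a : G} {N : ℕ} (ha : orderOf a = N) (i j : ZMod N) :
    zmodPow a (i + j) = zmodPow a i * zmodPow a j := by
  obtain ⟨i, rfl⟩ := ZMod.intCast_surjective i
  obtain ⟨j, rfl⟩ := ZMod.intCast_surjective j
  rw [← Int.cast_add, zmodPow_intCast ha, zmodPow_intCast ha, zmodPow_intCast ha, zpow_add]

theorem zmodPow_mul_nat {a : G} {N : ℕ} (ha : orderOf a = N) (i : ZMod N) (j : ℕ) :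
    zmodPow a (i * (j : ZMod N)) = zmodPow a i ^ j := by
  obtain ⟨i, rfl⟩ := ZMod.intCast_surjective i
  rw [← Int.cast_natCast, ← Int.cast_mul, zmodPow_intCast ha, zmodPow_intCast ha, zpow_mul,
    zpow_natCast]

theorem zmodPow_natCast {a : G} {N : ℕ} (ha : orderOf a = N) (j : ℕ) :
    zmodPow a (j : ZMod N) = a ^ j := by
  rw [← Int.cast_natCast, zmodPow_intCast ha, zpow_natCast]

theorem zmodPow_eq_one_iff {a : G} {N : ℕ} (ha : orderOf a = N) (i : ZMod N) :
    zmodPow a i = 1 ↔ i = 0 := by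
  obtain ⟨i, rfl⟩ := ZMod.intCast_surjective i
  rw [zmodPow_intCast ha, ← orderOf_dvd_iff_zpow_eq_one, ha, ZMod.intCast_zmod_eq_zero_iff_dvd]

theorem zmodPow_mem (a : G) {N : ℕ} (i : ZMod N) : zmodPow a i ∈ zpowers a :=
  zpow_mem_zpowers _ _

theorem exists_zmodPow_eq {a : G} {N : ℕ} (ha : orderOf a = N) {y : G} (hy : y ∈ zpowers a) :
    ∃ i : ZMod N, zmodPow a i = y := by
  obtain ⟨k, rfl⟩ := mem_zpowers_iff.1 hy
  exact ⟨k, zmodPow_intCast ha k⟩

theorem zmodPow_commute {a c : G} (h : Commute a c) {N : ℕ} (i : ZMod N) :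
    Commute (zmodPow a i) c := h.zpow_left _

section decomp

variable [hp : Fact p.Prime] {z c : G}

theorem fx_zmodPow_eq_bot (hz : orderOf z = p) (hfz : fx ρ z = ⊥) {i : ZMod p} (hi : i ≠ 0) :
    fx ρ (zmodPow z i) = ⊥ := by
  rw [eq_bot_iff, ← hfz]
  apply fx_le_of_mem_zpowers
  exact mem_zpowers_of_prime_order hz (zmodPow_mem z i) (by rwa [Ne, zmodPow_eq_one_iff hz])

theorem zmodPow_pow_p (hz : orderOf z = p) (i : ZMod p) : zmodPow z i ^ p = 1 := by
  rw [← zmodPow_mul_nat hz, ZMod.natCast_self, mul_zero, zmodPow_eq_one_iff hz]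

theorem sum_zmodPow_eq_zero (hz : orderOf z = p) (hfz : fx ρ z = ⊥) (v : V) :
    ∑ i : ZMod p, ρ (zmodPow z i) v = 0 := by
  have : ∑ i : ZMod p, ρ (zmodPow z i) v ∈ fx ρ z := by
    rw [mem_fx, map_sum]
    simp only [← rho_mul]
    rw [← Equiv.sum_comp (Equiv.addLeft (1 : ZMod p)) (fun i => ρ (zmodPow z i) v)]
    apply Finset.sum_congr rfl
    intro i _
    rw [Equiv.coe_addLeft, zmodPow_add hz, ← Nat.cast_one, zmodPow_natCast hz, pow_one]
  rwa [hfz] at this

theorem sum_nrm_eq (hz : orderOf z = p) (hfz : fx ρ z = ⊥) (hzc : Commute z c) (v : V) :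
    ∑ i : ZMod p, nrm ρ (zmodPow z i * c) p v = (p : F) • v := by
  simp only [nrm_apply]
  rw [Finset.sum_comm, Finset.sum_eq_single 0]
  · simp [Nat.cast_smul_eq_nsmul]
  · intro j hj hj0
    have hj' : (j : ZMod p) ≠ 0 := by
      rw [Ne, ZMod.natCast_eq_zero_iff]
      exact Nat.not_dvd_of_pos_of_lt (Nat.pos_of_ne_zero hj0) (Finset.mem_range.1 hj)
    rw [← sum_zmodPow_eq_zero ρ hz hfz (ρ (c ^ j) v),
      ← Equiv.sum_comp (Equiv.mulRight₀ (j : ZMod p) hj') (fun i => ρ (zmodPow z i) (ρ (c ^ j) v))]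
    apply Finset.sum_congr rfl
    intro i _
    rw [(zmodPow_commute hzc i).mul_pow, rho_mul, Equiv.mulRight₀_apply, zmodPow_mul_nat hz]
  · intro h; exact absurd (Finset.mem_range.2 hp.out.pos) h

theorem zc_pow_p (hz : orderOf z = p) (hzc : Commute z c) (hc : c ^ p = 1) (i : ZMod p) :
    (zmodPow z i * c) ^ p = 1 := by
  rw [(zmodPow_commute hzc i).mul_pow, zmodPow_pow_p hz, hc, one_mul]

theorem iSup_fx_eq_top (hpF : (p : F) ≠ 0) (hz : orderOf z = p) (hfz : fx ρ z = ⊥)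
    (hzc : Commute z c) (hc : c ^ p = 1) : ⨆ i : ZMod p, fx ρ (zmodPow z i * c) = ⊤ := by
  rw [eq_top_iff]
  intro v _
  have : v = (p : F)⁻¹ • ∑ i : ZMod p, nrm ρ (zmodPow z i * c) p v := by
    rw [sum_nrm_eq ρ hz hfz hzc, smul_smul, inv_mul_cancel₀ hpF, one_smul]
  rw [this]
  apply Submodule.smul_mem
  apply Submodule.sum_mem
  intro i _
  exact Submodule.mem_iSup_of_mem i (nrm_mem_fx ρ (zc_pow_p hz hzc hc i) v)

theorem nrm_eq_zero_of_ne (hz : orderOf z = p) (hfz : fx ρ z = ⊥)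
    (hzc : Commute z c) {i j : ZMod p} (hij : j ≠ i) {w : V} (hw : w ∈ fx ρ (zmodPow z j * c)) :
    nrm ρ (zmodPow z i * c) p w = 0 := by
  have h1 : nrm ρ (zmodPow z i * c) p w = nrm ρ (zmodPow z (i - j)) p w := by
    rw [nrm_apply, nrm_apply]
    apply Finset.sum_congr rfl
    intro t _
    have e : zmodPow z i * c = zmodPow z (i - j) * (zmodPow z j * c) := by
      rw [← mul_assoc, ← zmodPow_add hz, sub_add_cancel]
    have hc : Commute (zmodPow z (i - j)) (zmodPow z j * c) :=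
      Commute.mul_right (Commute.zpow_zpow_self _ _ _) (zmodPow_commute hzc _)
    rw [e, hc.mul_pow, rho_mul]
    congr 1
    exact fx_le_of_mem_zpowers ρ (pow_mem (mem_zpowers _) t) hw
  have h2 := nrm_mem_fx ρ (zmodPow_pow_p hz (i - j)) w
  rwa [fx_zmodPow_eq_bot ρ hz hfz (sub_ne_zero.2 hij.symm), ← h1] at h2

theorem iSupIndep_fx (hpF : (p : F) ≠ 0) (hz : orderOf z = p) (hfz : fx ρ z = ⊥)
    (hzc : Commute z c) : iSupIndep (fun i : ZMod p => fx ρ (zmodPow z i * c)) := by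
  intro i
  rw [Submodule.disjoint_def]
  intro w hw hw'
  have h1 : (⨆ j, ⨆ (_ : j ≠ i), fx ρ (zmodPow z j * c)) ≤
      LinearMap.ker (nrm ρ (zmodPow z i * c) p) := by
    refine iSup_le fun j => iSup_le fun hj => ?_
    intro u hu
    exact nrm_eq_zero_of_ne ρ hz hfz hzc hj hu
  have h2 : nrm ρ (zmodPow z i * c) p w = 0 := h1 hw'
  rw [nrm_of_mem_fx ρ p hw] at h2
  exact (smul_eq_zero.1 h2).resolve_left hpF

/-- An elementary abelian group of order `p ^ 2` has a non-trivial element with a non-zero fixed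
vector. -/
theorem exists_fx_ne_bot [Nontrivial V] (hpF : (p : F) ≠ 0) (hz : orderOf z = p)
    (hfz : fx ρ z = ⊥) (hzc : Commute z c) (hc : c ^ p = 1) :
    ∃ i : ZMod p, fx ρ (zmodPow z i * c) ≠ ⊥ := by
  by_contra h
  push Not at h
  have := iSup_fx_eq_top ρ hpF hz hfz hzc hc
  simp [h] at this

end decomp

/-- A `p`-group acting on a finite non-zero vector space of characteristic `p` has a non-zero
fixed vector. -/
theorem exists_fixed_vector [Finite V] [Nontrivial V] [hp : Fact p.Prime] (hG : IsPGroup p G)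
    (hpF : (p : F) = 0) : ∃ v : V, v ≠ 0 ∧ ∀ g, ρ g v = v := by
  let _ : MulAction G V := MulAction.compHom V ρ
  have hdvd : p ∣ Nat.card V := by
    obtain ⟨v, hv⟩ := exists_ne (0 : V)
    have h1 : addOrderOf v = p := by
      apply addOrderOf_eq_prime _ hv
      rw [← Nat.cast_smul_eq_nsmul F, hpF, zero_smul]
    rw [← h1]; exact addOrderOf_dvd_natCard v
  obtain ⟨b, hb, hb0⟩ := hG.exists_fixed_point_of_prime_dvd_card_of_fixed_point (α := V) hdvd
    (a := 0) (by intro g; exact map_zero (ρ g))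
  exact ⟨b, fun h => hb0 h.symm, fun g => hb g⟩

/-- In a faithful irreducible representation, non-trivial central elements have no non-zero
fixed vectors. -/
theorem fx_eq_bot_of_central (hρ : Function.Injective ρ)
    (hirr : ∀ W : Submodule F V, (∀ g : G, ∀ w ∈ W, ρ g w ∈ W) → W = ⊥ ∨ W = ⊤)
    {x : G} (hx : x ∈ center G) (hx1 : x ≠ 1) : fx ρ x = ⊥ := by
  rcases hirr (fx ρ x) (fun g w hw => rho_mem_fx_of_commute ρ (mem_center_iff.1 hx g) hw) with h | h
  · exact h
  · exact absurd (eq_one_of_fx_eq_top ρ hρ h) hx1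

/-- If `c` is central modulo `⟨z⟩` with `z` central of order `p` and `c` is not central, then the
centralizer of `c` has index `p`. -/
theorem index_centralizer_eq [hp : Fact p.Prime] {z c : G} (hzc : z ∈ center G)
    (hz : orderOf z = p) (hc : ∀ g, g * c * g⁻¹ * c⁻¹ ∈ zpowers z) (hcc : c ∉ center G) :
    (centralizer {c}).index = p := by
  have hle : zpowers z ≤ center G := zpowers_le_of_mem hzc
  let φ : G →* zpowers z := MonoidHom.mk' (fun g => ⟨g * c * g⁻¹ * c⁻¹, hc g⟩) (by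
    intro g h
    apply Subtype.ext
    change g * h * c * (g * h)⁻¹ * c⁻¹ = g * c * g⁻¹ * c⁻¹ * (h * c * h⁻¹ * c⁻¹)
    have h1 := mem_center_iff.1 (hle (hc h))
    calc g * h * c * (g * h)⁻¹ * c⁻¹ = (g * (h * c * h⁻¹ * c⁻¹)) * (c * g⁻¹ * c⁻¹) := by group
      _ = g * c * g⁻¹ * c⁻¹ * (h * c * h⁻¹ * c⁻¹) := by
        rw [h1 g, h1 (g * c * g⁻¹ * c⁻¹)]; group)
  have hker : φ.ker = centralizer {c} := by
    ext g
    rw [MonoidHom.mem_ker, mem_centralizer_singleton_iff, Subtype.ext_iff]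
    change g * c * g⁻¹ * c⁻¹ = 1 ↔ _
    rw [mul_inv_eq_one, mul_inv_eq_iff_eq_mul]
  have hcard : Nat.card (zpowers z) = p := by rw [Nat.card_zpowers, hz]
  have : Fact (Nat.card (zpowers z)).Prime := hcard ▸ hp
  rcases φ.range.eq_bot_or_eq_top_of_prime_card with h | h
  · exfalso
    apply hcc
    rw [mem_center_iff]
    intro g
    have : φ g ∈ φ.range := ⟨g, rfl⟩
    rw [h, mem_bot, ← MonoidHom.mem_ker, hker, mem_centralizer_singleton_iff] at this
    exact this
  · rw [← hker, index_ker, h, Subgroup.card_top, hcard]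

end Cfsg.Agent.LinP
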